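import Cfsg.Agent.CharExt.InvCoprime

/-!
# A central model for an invariant character of a normal subgroup
-/

set_option autoImplicit false
set_option linter.style.haveILetI false
set_option linter.unusedSectionVars false

namespace Cfsg.Agent.CharExt

open Cfsg Cfsg.Agent Subgroup
open scoped Classical

universe u

/-- An invariant `θ` of `N` gives a central extension of `Γ ⧸ N` with a linear character `μ` of the
kernel, so that characters over `μ` give characters over `θ`. -/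
theorem exists_central_model {Γ : Type u} [Group Γ] [Fintype Γ] (G N : Subgroup Γ) [hG : G.Normal]
    [hN : N.Normal] [Fintype G] [Fintype N] (hNG : N ≤ G) (θ : IrrCharacter N)
    (hinv : ∀ (x : Γ) (n : N), (θ : N → ℂ) (cj N x n) = (θ : N → ℂ) n) :
    ∃ (X : Type u) (_ : Group X) (_ : Fintype X) (r : X →* Γ ⧸ N) (E : Subgroup X)
      (hZE : r.ker ≤ E) (μ : r.ker →* ℂˣ),
      Function.Surjective r ∧ r.ker ≤ center X ∧ E = (G.map (QuotientGroup.mk' N)).comap r ∧
      E.index = G.index ∧ r.ker.relIndex E = N.relIndex G ∧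
      ∀ (_ : Fintype E) (β : E → ℂ), IsIrrCharacter E β →
        (∀ (z : r.ker) (g : E), β (inclusion hZE z * g) = (μ z : ℂ) * β g) →
        (∀ x, ∀ g g' : E, (g' : X) = x * g * x⁻¹ → β g' = β g) →
        ∃ ψ : IrrCharacter G, (∀ n : N, (ψ : G → ℂ) ⟨n, hNG n.2⟩ = β 1 * (θ : N → ℂ) n) ∧
          ∀ (x : Γ) (g : G), (ψ : G → ℂ) (cj G x g) = (ψ : G → ℂ) g := by
  obtain ⟨X, _, _, f, N', δ, hf, hN'n, hmap, hcent, hmeet, hδ, hδN, hδθ⟩ :=
    CharDeep.exists_cover N θ.2 hinv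
  let r : X ⧸ N' →* Γ ⧸ N := QuotientGroup.lift N' ((QuotientGroup.mk' N).comp f)
    fun x hx => (QuotientGroup.eq_one_iff _).2 (hmap ▸ mem_map_of_mem f hx)
  let π := QuotientGroup.mk' N'
  have hπ : Function.Surjective π := QuotientGroup.mk'_surjective N'
  have hr : Function.Surjective r := fun y => by
    obtain ⟨y, rfl⟩ := QuotientGroup.mk'_surjective N y
    obtain ⟨x, rfl⟩ := hf y
    exact ⟨π x, rfl⟩
  let E := (G.map (QuotientGroup.mk' N)).comap r
  have hZE : r.ker ≤ E := fun z hz => by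
    show r z ∈ G.map (QuotientGroup.mk' N)
    rw [show r z = 1 from hz]; exact one_mem _
  have hker : r.ker = f.ker.map π := by
    ext y
    obtain ⟨x, rfl⟩ := hπ y
    show (f x : Γ ⧸ N) = 1 ↔ _
    rw [QuotientGroup.eq_one_iff]
    refine ⟨fun hx => ?_, ?_⟩
    · rw [← hmap] at hx
      obtain ⟨m, hm, hmx⟩ := hx
      refine ⟨m⁻¹ * x, ?_, ?_⟩
      · show f (m⁻¹ * x) = 1
        rw [map_mul, map_inv, hmx, inv_mul_cancel]
      · rw [map_mul, map_inv, show π m = 1 from (QuotientGroup.eq_one_iff m).2 hm, inv_one, one_mul]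
    · rintro ⟨w, hw, hwx⟩
      have h1 : w⁻¹ * x ∈ N' := QuotientGroup.eq.1 hwx
      have h2 : f (w⁻¹ * x) ∈ N := hmap ▸ mem_map_of_mem f h1
      rwa [map_mul, map_inv, show f w = 1 from hw, inv_one, one_mul] at h2
  have hGmap : (G.map (QuotientGroup.mk' N)).index = G.index :=
    index_map_eq _ (QuotientGroup.mk'_surjective N) (by rw [QuotientGroup.ker_mk']; exact hNG)
  have hEi : E.index = G.index := (index_comap_of_surjective _ hr).trans hGmap
  obtain ⟨c, hc⟩ := exists_central_hom hδ f.ker fun z hz =>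
    mem_center_iff.2 fun y => (hcent z hz y).symm
  let i₀ : f.ker →* r.ker := MonoidHom.mk' (fun z => ⟨π z, hker ▸ mem_map_of_mem π z.2⟩)
    fun a b => Subtype.ext (map_mul π (a : X) (b : X))
  let i : f.ker ≃* r.ker := MulEquiv.ofBijective i₀
    ⟨(injective_iff_map_eq_one _).2 fun z hz => Subtype.ext (hmeet z
      ((QuotientGroup.eq_one_iff _).1 (congrArg Subtype.val hz)) z.2), fun y => by
      obtain ⟨z, hz, hzy⟩ : (y : X ⧸ N') ∈ f.ker.map π := hker ▸ y.2
      exact ⟨⟨z, hz⟩, Subtype.ext hzy⟩⟩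
  refine ⟨X ⧸ N', inferInstance, Fintype.ofFinite _, r, E, hZE,
    (c⁻¹).comp i.symm.toMonoidHom, hr, ?_, rfl, hEi, ?_, ?_⟩
  · rw [hker]
    rintro _ ⟨z, hz, rfl⟩
    refine mem_center_iff.2 fun y => ?_
    obtain ⟨y, rfl⟩ := hπ y
    rw [← map_mul, ← map_mul, hcent z hz y]
  · have h1 := relIndex_mul_index hZE
    rw [hEi, index_ker, r.range_eq_top_of_surjective hr, Subgroup.card_top,
      ← index_eq_card N, ← relIndex_mul_index hNG] at h1
    exact mul_right_cancel₀ (index_ne_zero_of_finite (H := G)) h1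
  intro _ β hβ hβμ hβinv
  let Gh := G.comap f
  have hN'G : N' ≤ Gh := fun x hx => hNG (hmap ▸ mem_map_of_mem f hx)
  letI := Fintype.ofFinite Gh
  let p : Gh →* E := (π.comp Gh.subtype).codRestrict E fun x => mem_map_of_mem _ x.2
  have hp : Function.Surjective p := by
    rintro ⟨y, hy⟩
    obtain ⟨x, rfl⟩ := hπ y
    obtain ⟨g, hg, hgx⟩ : (f x : Γ ⧸ N) ∈ G.map (QuotientGroup.mk' N) := hy
    refine ⟨⟨x, show f x ∈ G from ?_⟩, rfl⟩
    have h1 := G.mul_mem hg (hNG (QuotientGroup.eq.1 hgx))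
    rwa [mul_inv_cancel_left] at h1
  let M := N'.subgroupOf Gh
  letI := Fintype.ofFinite M
  letI := Fintype.ofFinite N'
  have hδG : IsIrrCharacter Gh (fun x : Gh => δ x) :=
    CharDeep.irr_res_of_le (Char.isCharacter_of_irr hδ) N' Gh hN'G hδN
  have hδM : IsIrrCharacter M (fun x : M => δ ((x : Gh) : X)) :=
    Char.isIrrCharacter_comp_mulEquiv hδN (subgroupOfEquivOfLe hN'G)
  have hprod := isIrrCharacter_mul M (fun x : Gh => δ x) hδG hδM
    (β := fun x => β (p x)) (CharInd.irr_comp_surjective p hp hβ) (fun m g => by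
      show β (p ((m : Gh) * g)) = β (p g)
      rw [map_mul, show p (m : Gh) = 1 from Subtype.ext ((QuotientGroup.eq_one_iff _).2 m.2),
        one_mul])
  let fG : Gh →* G := (f.comp Gh.subtype).codRestrict G fun x => x.2
  have hfG : Function.Surjective fG := fun g => by
    obtain ⟨x, hx⟩ := hf g
    exact ⟨⟨x, show f x ∈ G by rw [hx]; exact g.2⟩, Subtype.ext hx⟩
  have hconst : ∀ z ∈ fG.ker, ((fun x : Gh => β (p x)) * fun x : Gh => δ x) z =
      ((fun x : Gh => β (p x)) * fun x : Gh => δ x) 1 := by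
    intro z hz
    let z₀ : f.ker := ⟨(z : X), congrArg Subtype.val hz⟩
    have h1 : p z = inclusion hZE (i z₀) * 1 := by rw [mul_one]; rfl
    have h2 := hc z₀ 1
    rw [mul_one] at h2
    show β (p z) * δ ((z : Gh) : X) = β (p 1) * δ ((1 : Gh) : X)
    rw [h1, hβμ, map_one, OneMemClass.coe_one, show ((z : Gh) : X) = ((z₀ : f.ker) : X) from rfl,
      h2, MonoidHom.comp_apply, MulEquiv.coe_toMonoidHom, MulEquiv.symm_apply_apply,
      MonoidHom.inv_apply]
    have : (((c z₀)⁻¹ : ℂˣ) : ℂ) * (c z₀ : ℂ) = 1 := Units.inv_mul _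
    linear_combination (β 1 * δ 1) * this
  obtain ⟨ψ₀, hψ₀, hψ₀e⟩ := Char.irr_exists_descend hprod fG.ker hconst
  let eG := QuotientGroup.quotientKerEquivOfSurjective fG hfG
  let ψ : IrrCharacter G := ⟨ψ₀ ∘ eG.symm, Char.isIrrCharacter_comp_mulEquiv hψ₀ eG.symm⟩
  have hψ : ∀ y : Gh, (ψ : G → ℂ) (fG y) = β (p y) * δ y := fun y => by
    show ψ₀ (eG.symm (fG y)) = _
    rw [show eG.symm (fG y) = (y : Gh ⧸ fG.ker) from eG.symm_apply_apply (y : Gh ⧸ fG.ker)]
    exact (hψ₀e y).symm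
  refine ⟨ψ, fun n => ?_, fun y g => ?_⟩
  · obtain ⟨x, hx, hxn⟩ : (n : Γ) ∈ N'.map f := hmap.symm ▸ n.2
    have h1 := hψ ⟨x, hN'G hx⟩
    rw [show fG ⟨x, hN'G hx⟩ = ⟨(n : Γ), hNG n.2⟩ from Subtype.ext hxn,
      show p ⟨x, hN'G hx⟩ = 1 from Subtype.ext ((QuotientGroup.eq_one_iff _).2 hx)] at h1
    rw [h1]
    congr 1
    rw [show δ x = _ from hδθ ⟨x, hx⟩ (hxn ▸ n.2)]
    exact congrArg _ (Subtype.ext hxn)
  · obtain ⟨x, rfl⟩ := hf y
    obtain ⟨g, rfl⟩ := hfG g
    let g' : Gh := ⟨x * g * x⁻¹, (hG.comap f).conj_mem g g.2 x⟩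
    rw [show cj G (f x) (fG g) = fG g' from
      Subtype.ext (show f x * f g * (f x)⁻¹ = f (x * g * x⁻¹) by rw [map_mul, map_mul, map_inv]),
      hψ, hψ]
    congr 1
    · exact hβinv (π x) (p g) (p g') (show π (x * g * x⁻¹) = π x * π g * (π x)⁻¹ by
        rw [map_mul, map_mul, map_inv])
    · exact Char.irr_isClassFunction hδ (g : X) x

end Cfsg.Agent.CharExt
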