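import Mathlib
import Cfsg.Agent.CharExt.Inertia
import Cfsg.Agent.Char.Linear

/-!
# Going down along an abelian chief factor
-/

namespace Cfsg.Agent.CharExt

universe u

open scoped ComplexConjugate

variable {G : Type u} [Group G] [Fintype G]

theorem going_down (K L : Subgroup G) [hK : K.Normal] [hLn : L.Normal] (hLK : L ≤ K)
    (hchief : ∀ M : Subgroup G, M.Normal → L ≤ M → M ≤ K → M = L ∨ M = K) (hab : ⁅K, K⁆ ≤ L)
    (ϑ : K → ℂ) (hϑ : Cfsg.IsIrrCharacter K ϑ)
    (hinv : ∀ (g : G) (n : K), ϑ ⟨g * n * g⁻¹, hK.conj_mem (n : G) n.2 g⟩ = ϑ n) :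
    Cfsg.IsIrrCharacter L (fun x : L => ϑ ⟨(x : G), hLK x.2⟩) ∨
      (∃ (φ : L → ℂ) (e : ℕ), Cfsg.IsIrrCharacter L φ ∧
        (fun x : L => ϑ ⟨(x : G), hLK x.2⟩) = (e : ℂ) • φ ∧ e ^ 2 = L.relIndex K) ∨
      ∃ F : Finset (L → ℂ), (∀ φ ∈ F, Cfsg.IsIrrCharacter L φ) ∧ F.card = L.relIndex K ∧
        (fun x : L => ϑ ⟨(x : G), hLK x.2⟩) = ∑ φ ∈ F, φ := by
  classical
  set L' := L.subgroupOf K
  haveI : L'.Normal := Subgroup.normal_subgroupOf
  let eL : L' ≃* L := Subgroup.subgroupOfEquivOfLe hLK
  obtain ⟨φ, n, hn, hn'⟩ := Char.exists_irr_constituent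
    (CharInd.isCharacter_res L' (Char.isCharacter_of_irr hϑ))
    (fun h => Char.irr_one_ne_zero hϑ (congrFun h 1))
  have hcon : Cfsg.classInner (fun r : L' => ϑ r) (φ : L' → ℂ) ≠ 0 := by
    rw [hn']; exact_mod_cast hn.ne'
  obtain ⟨e, he, hemul, hres, hdeg⟩ := clifford_data L' hϑ φ.2 hcon
  set T := inertia L' (φ : L' → ℂ)
  have hL'T : L' ≤ T := le_inertia L' (Char.irr_isClassFunction φ.2)
  have hcomm : ∀ a b : K, a * b * a⁻¹ * b⁻¹ ∈ L' := by
    intro a b
    show (a : G) * b * (a : G)⁻¹ * (b : G)⁻¹ ∈ L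
    refine hab ?_
    rw [← commutatorElement_def]
    exact Subgroup.commutator_mem_commutator a.2 b.2
  -- the inertia group is normal in `G`
  set M := T.map K.subtype
  have hLM : L ≤ M := fun x hx => ⟨⟨x, hLK hx⟩, hL'T hx, rfl⟩
  have hMn : M.Normal := by
    refine ⟨?_⟩
    rintro _ ⟨t, ht, rfl⟩ g
    let cK : K → K := fun k => ⟨g * k * g⁻¹, hK.conj_mem (k : G) k.2 g⟩
    let cL : L' →* L' :=
      { toFun := fun l => ⟨cK l, hLn.conj_mem _ l.2 g⟩
        map_one' := Subtype.ext (Subtype.ext (by simp [cK]))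
        map_mul' := fun a b => Subtype.ext (Subtype.ext (by simp [cK, mul_assoc])) }
    have hcLinj : Function.Injective cL := by
      intro a b h
      have h1 : g * ((a : K) : G) * g⁻¹ = g * ((b : K) : G) * g⁻¹ :=
        congrArg (fun x : L' => ((x : K) : G)) h
      exact Subtype.ext (Subtype.ext (by simpa using h1))
    have hcLsurj : Function.Surjective cL := Finite.surjective_of_injective hcLinj
    let φg : L' → ℂ := fun l => (φ : L' → ℂ) (cL l)
    have hφg : Cfsg.IsIrrCharacter L' φg := CharInd.irr_comp_surjective cL hcLsurj φ.2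
    have hconst : Cfsg.classInner (fun r : L' => ϑ r) φg = Cfsg.classInner (fun r : L' => ϑ r) φ := by
      unfold Cfsg.classInner
      congr 1
      refine Fintype.sum_bijective cL ⟨hcLinj, hcLsurj⟩ _ _ fun l => ?_
      show ϑ (l : K) * conj ((φ : L' → ℂ) (cL l)) = ϑ (cK l) * conj ((φ : L' → ℂ) (cL l))
      rw [show ϑ (cK l) = ϑ (l : K) from hinv g l]
    have hmem := mem_conjClass_of_constituent L' hϑ φ.2 hφg hcon (by rw [hconst]; exact hcon)
    obtain ⟨k, hk⟩ := (CharInd.mem_conjClass L').1 hmem
    have htk : k * t * k⁻¹ ∈ T := by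
      have h1 := T.mul_mem (hL'T (hcomm k t)) ht
      simpa using h1
    refine ⟨cK t, ?_, rfl⟩
    show CharInd.conjChar L' (cK t) (φ : L' → ℂ) = φ
    funext m
    obtain ⟨l, rfl⟩ := hcLsurj m
    have e1 : CharInd.conjChar L' (cK t) (φ : L' → ℂ) (cL l) = CharInd.conjChar L' t φg l := by
      simp only [CharInd.conjChar_apply, φg]
      exact congrArg _ (Subtype.ext (Subtype.ext (by simp [cL, cK, mul_assoc])))
    rw [e1, hk, ← CharInd.conjChar_mul, show k * t = (k * t * k⁻¹) * k by simp,
      CharInd.conjChar_mul, mem_inertia.mp htk]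
    show CharInd.conjChar L' k (φ : L' → ℂ) l = φg l
    rw [hk]
  have hL'card : L'.index = L.relIndex K := rfl
  rcases hchief M hMn hLM (Subgroup.map_subtype_le T) with hM | hM
  · -- all conjugates are distinct
    right; right
    have hT : T = L' := by
      refine le_antisymm (fun t ht => ?_) hL'T
      have : (t : G) ∈ M := ⟨t, ht, rfl⟩
      rw [hM] at this
      exact this
    obtain ⟨ψ, hψ, -, hψm⟩ := Cfsg.Agent.S0854.result L' (φ : L' → ℂ) φ.2 L'
      (fun k => ⟨fun h m => congrFun (mem_inertia.mp (show k ∈ T from hT.symm ▸ h)) m,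
        fun h => hT ▸ (show k ∈ T from funext h)⟩) le_rfl ϑ hϑ hcon
    rw [hemul] at hψm
    have he1 : e = 1 := by
      by_cases h : ψ = (φ : L' → ℂ)
      · subst h
        rw [show (fun x : L' => (φ : L' → ℂ) ⟨(x : K), (le_refl L') x.2⟩) = (φ : L' → ℂ) from rfl,
          Char.classInner_irr_self φ.2] at hψm
        exact_mod_cast hψm.symm
      · rw [show (fun x : L' => ψ ⟨(x : K), (le_refl L') x.2⟩) = ψ from rfl,
          Char.classInner_irr_ne hψ φ.2 h] at hψm
        exact absurd hψm.symm (by exact_mod_cast he.ne')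
    let tr : (L' → ℂ) ↪ (L → ℂ) :=
      ⟨fun f l => f (eL.symm l), fun a b h => funext fun x => by simpa using congrFun h (eL x)⟩
    refine ⟨(CharInd.conjClass L' (φ : L' → ℂ)).map tr, ?_, ?_, ?_⟩
    · intro ξ hξ
      obtain ⟨f, hf, rfl⟩ := Finset.mem_map.mp hξ
      obtain ⟨x, rfl⟩ := (CharInd.mem_conjClass L').1 hf
      exact CharInd.irr_comp_surjective eL.symm.toMonoidHom eL.symm.surjective
        (CharInd.conjChar_irr L' x φ.2)
    · rw [Finset.card_map, card_conjClass, ← hL'card]
      exact congrArg Subgroup.index hT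
    · funext x
      have h1 := congrFun hres (eL.symm x)
      rw [he1, Nat.cast_one, one_smul, Finset.sum_apply] at h1
      rw [Finset.sum_apply, Finset.sum_map]
      exact h1
  · -- `φ` is invariant
    have hT : T = ⊤ := by
      refine (Subgroup.eq_top_iff' _).mpr fun t => ?_
      have : (t : G) ∈ M := hM.symm ▸ t.2
      obtain ⟨t', ht', he'⟩ := this
      rwa [← Subtype.ext (p := fun x => x ∈ K) he']
    rw [conjClass_eq_singleton L' hT, Finset.sum_singleton] at hres
    have hresL : (fun x : L => ϑ ⟨(x : G), hLK x.2⟩) =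
        (e : ℂ) • fun x : L => (φ : L' → ℂ) (eL.symm x) :=
      funext fun x => congrFun hres (eL.symm x)
    have hirrL : Cfsg.IsIrrCharacter L (fun x : L => (φ : L' → ℂ) (eL.symm x)) :=
      CharInd.irr_comp_surjective eL.symm.toMonoidHom eL.symm.surjective φ.2
    set U : Subgroup G := L ⊔ Subgroup.closure {x : G | ∃ hx : x ∈ K, ϑ ⟨x, hx⟩ ≠ 0}
    have hUn : U.Normal := by
      haveI : (Subgroup.closure {x : G | ∃ hx : x ∈ K, ϑ ⟨x, hx⟩ ≠ 0}).Normal := by
        refine ⟨fun x hx g => ?_⟩
        have hle : Subgroup.map (MulAut.conj g).toMonoidHom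
            (Subgroup.closure {x : G | ∃ hx : x ∈ K, ϑ ⟨x, hx⟩ ≠ 0}) ≤
            Subgroup.closure {x : G | ∃ hx : x ∈ K, ϑ ⟨x, hx⟩ ≠ 0} := by
          rw [MonoidHom.map_closure, Subgroup.closure_le]
          rintro _ ⟨a, ⟨ha, ha'⟩, rfl⟩
          refine Subgroup.subset_closure ⟨hK.conj_mem a ha g, ?_⟩
          have h1 := hinv g ⟨a, ha⟩
          rw [← h1] at ha'
          exact ha'
        exact hle ⟨x, hx, rfl⟩
      exact Subgroup.sup_normal _ _
    have hUK : U ≤ K :=
      sup_le hLK ((Subgroup.closure_le _).mpr fun x hx => hx.1)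
    rcases hchief U hUn le_sup_left hUK with hU | hU
    · -- fully ramified
      right; left
      refine ⟨_, e, hirrL, hresL, ?_⟩
      have hvan : ∀ k : K, k ∉ L' → ϑ k = 0 := by
        intro k hk
        by_contra hne
        apply hk
        show (k : G) ∈ L
        rw [← hU]
        exact Subgroup.mem_sup_right (Subgroup.subset_closure ⟨k.2, hne⟩)
      have h1 : ∑ k : K, ϑ k * conj (ϑ k) = ∑ l : L', ϑ l * conj (ϑ l) := by
        rw [← Finset.sum_filter_of_ne (s := Finset.univ) (p := fun k => k ∈ L')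
          (f := fun k => ϑ k * conj (ϑ k))
          (fun k _ hne => by by_contra hk; exact hne (by rw [hvan k hk, zero_mul]))]
        exact Finset.sum_subtype _ (fun x => by simp) (fun k => ϑ k * conj (ϑ k))
      rw [Char.sum_mul_conj_eq_card_mul_classInner, Char.sum_mul_conj_eq_card_mul_classInner
        (fun l : L' => ϑ l) (fun l : L' => ϑ l), Char.classInner_irr_self hϑ, hres,
        Char.classInner_smul_left, Char.classInner_smul_right, Char.classInner_irr_self φ.2,
        map_natCast, mul_one, mul_one, ← L'.card_mul_index, Nat.cast_mul] at h1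
      have h2 := mul_left_cancel₀ (Nat.cast_ne_zero.mpr (Nat.card_pos (α := L')).ne') h1
      rw [← hL'card]
      have h3 : L'.index = e * e := by exact_mod_cast h2
      rw [h3, sq]
    · -- irreducible
      left
      have hquot : ∀ a b : K ⧸ L', a * b = b * a := by
        intro a b
        induction a using QuotientGroup.induction_on with
        | H a =>
          induction b using QuotientGroup.induction_on with
          | H b =>
            rw [← QuotientGroup.mk_mul, ← QuotientGroup.mk_mul]
            symm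
            rw [QuotientGroup.eq]
            have := hcomm a⁻¹ b⁻¹
            simpa [mul_assoc] using this
      have hcard : Nat.card (K ⧸ L' →* ℂˣ) = L'.index := by
        rw [Char.card_monoidHom_complex, commutator_eq_closure,
          show Subgroup.closure (commutatorSet (K ⧸ L')) = ⊥ from ?_, Subgroup.index_bot]
        · rfl
        · rw [eq_bot_iff, Subgroup.closure_le]
          rintro _ ⟨a, b, rfl⟩
          exact commutatorElement_eq_one_iff_mul_comm.mpr (hquot a b)
      haveI : Finite (K ⧸ L' →* ℂˣ) := Char.monoidHom_complex_finite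
      haveI := Fintype.ofFinite (K ⧸ L' →* ℂˣ)
      let tw : (K ⧸ L' →* ℂˣ) → Cfsg.IrrCharacter K := fun f =>
        ⟨fun k => (f (k : K ⧸ L') : ℂ) * ϑ k,
          Char.isIrrCharacter_mul_monoidHom hϑ (f.comp (QuotientGroup.mk' L'))⟩
      have htw : Function.Injective tw := by
        intro f f' h
        apply QuotientGroup.monoidHom_ext
        let E : Subgroup G :=
          (MonoidHom.eqLocus (f.comp (QuotientGroup.mk' L')) (f'.comp (QuotientGroup.mk' L'))).map
            K.subtype
        have hUE : U ≤ E := by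
          refine sup_le (fun x hx => ⟨⟨x, hLK hx⟩, ?_, rfl⟩) ((Subgroup.closure_le _).mpr ?_)
          · have : ((⟨x, hLK hx⟩ : K) : K ⧸ L') = 1 := (QuotientGroup.eq_one_iff _).mpr hx
            show f ((⟨x, hLK hx⟩ : K) : K ⧸ L') = f' _
            rw [QuotientGroup.mk'_apply, this, map_one, map_one]
          · rintro x ⟨hx, hne⟩
            refine ⟨⟨x, hx⟩, ?_, rfl⟩
            have h1 : (f ((⟨x, hx⟩ : K) : K ⧸ L') : ℂ) * ϑ ⟨x, hx⟩ = f' ((⟨x, hx⟩ : K) : K ⧸ L') * ϑ ⟨x, hx⟩ :=
              congrFun (congrArg Subtype.val h) ⟨x, hx⟩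
            exact Units.ext (mul_right_cancel₀ hne h1)
        refine MonoidHom.ext fun k => ?_
        obtain ⟨k', hk', hkk⟩ := hUE (hU.symm ▸ k.2 : (k : G) ∈ U)
        rwa [← Subtype.ext (p := fun x => x ∈ K) hkk]
      have hind := CharInd.isCharacter_indFun L' (Char.isCharacter_of_irr φ.2)
      obtain ⟨m, hm, hm'⟩ := Char.isCharacter_exists_coeff hind
      have hmtw : ∀ f, m (tw f) = e := by
        intro f
        have h1 := hm' (tw f)
        rw [CharInd.classInner_indFun_left L' _ (Char.irr_isClassFunction (tw f).2)] at h1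
        have h2 : (fun l : L' => ((tw f : Cfsg.IrrCharacter K) : K → ℂ) l) =
            fun l : L' => ϑ l := by
          funext l
          show (f ((l : K) : K ⧸ L') : ℂ) * ϑ l = ϑ l
          rw [(QuotientGroup.eq_one_iff (l : K)).mpr l.2, map_one, Units.val_one, one_mul]
        rw [h2, hres, Char.classInner_smul_right, Char.classInner_irr_self φ.2, map_natCast,
          mul_one] at h1
        exact_mod_cast h1.symm
      choose d hd0 hd using fun β : Cfsg.IrrCharacter K => Char.irr_one_pos β.2
      obtain ⟨a, ha0, ha⟩ := Char.irr_one_pos φ.2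
      have htot : ∑ β, m β * d β = L'.index * a := by
        have h1 := congrFun hm 1
        rw [CharInd.indFun_one_apply, ha, Finset.sum_apply] at h1
        have h2 : ((∑ β, m β * d β : ℕ) : ℂ) = ((L'.index * a : ℕ) : ℂ) := by
          push_cast
          rw [h1]
          exact Finset.sum_congr rfl fun β _ => by
            simp [hd]
        exact_mod_cast h2
      have hdeg' : ∀ f, d (tw f) = e * a := by
        intro f
        have h1 : ((tw f : Cfsg.IrrCharacter K) : K → ℂ) 1 = (f (1 : K ⧸ L') : ℂ) * ϑ 1 := rfl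
        rw [map_one, Units.val_one, one_mul, hd, hdeg, hT, Subgroup.index_top, ha] at h1
        have : (d (tw f) : ℂ) = ((e * a : ℕ) : ℂ) := by push_cast; rw [h1]; simp
        exact_mod_cast this
      have hle : ∑ β ∈ Finset.univ.image tw, m β * d β ≤ ∑ β, m β * d β :=
        Finset.sum_le_sum_of_subset (Finset.subset_univ _)
      rw [htot, Finset.sum_image (fun f _ g _ h => htw h),
        Finset.sum_congr rfl (fun f _ => by rw [hmtw, hdeg']), Finset.sum_const, Finset.card_univ,
        ← Nat.card_eq_fintype_card, hcard, smul_eq_mul] at hle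
      have hidx : 0 < L'.index := Nat.pos_of_ne_zero Subgroup.index_ne_zero_of_finite
      have he1 : e = 1 := by
        have h1 : e * (e * a) ≤ 1 * a := by
          rw [one_mul]
          exact Nat.le_of_mul_le_mul_left hle hidx
        rw [← mul_assoc] at h1
        have h2 := Nat.le_of_mul_le_mul_right h1 ha0
        nlinarith
      rw [hresL, he1, Nat.cast_one, one_smul]
      exact hirrL

end Cfsg.Agent.CharExt
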